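import Mathlib
import Cfsg.Agent.H346.DP.ChevNode
import Cfsg.Agent.H346.DP.Words

/-!
The row `F₄` of S2454 from the nodes.
-/

set_option autoImplicit false
set_option linter.unusedSectionVars false

namespace Cfsg.Agent.H346.DP

open CoxeterSystem Cfsg.Agent.H514.DP
open Cfsg.Lie Cfsg.Agent.ChevalleyStructure Cfsg.Agent.Nodes.RGDChev Cfsg.Agent.KFacts.RgdChevCoord
  Cfsg.Agent.OddHalf.NI.ModelChev

universe u

/-- **`F₄(q)` from the nodes.** -/
theorem pw_F4_of {K : Type u} [Field K] [Fintype K] {p : ℕ}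
    (hnodes : ∀ (r : ℕ) [Fact r.Prime] [CharP K r], p ≠ r →
      ∃ m : Fin 4 → ℕ, m 0 + m 1 + m 2 + m 3 ≤ 35 ∧
        ∀ (i : Fin 4) (t : K), PE p (m i)
          (sl Cfsg.Agent.Nodes.KindF.isType i (OddHalf.NI.Mult.up t * OddHalf.NI.Mult.nn 1))) :
    PW p 70 ↥(chevF4.group K) := by
  obtain ⟨r, hr⟩ := CharP.exists K
  have : Fact r.Prime := ⟨(CharP.char_is_prime_or_zero K r).resolve_right (CharP.char_ne_zero_of_finite K r)⟩
  by_cases hpr : p = r
  · subst hpr
    exact (pw_own (K := K) (r := p) Cfsg.Agent.Nodes.KindF.isType (by norm_num)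
      (Cfsg.Agent.S1054.result chevF4 (by simp)) Cfsg.Agent.Nodes.ChevChart.irrF).mono (by norm_num)
  obtain ⟨m, hm, hn⟩ := hnodes r hpr
  refine pw_chev (K := K) Cfsg.Agent.Nodes.KindF.isType (by norm_num)
    (Cfsg.Agent.S1054.result chevF4 (by simp)) Cfsg.Agent.Nodes.ChevChart.irrF chkF.tok (m := m) hn ?_
  have : ([0, 1, 2, 3] : List (Fin 4)).map m = [m 0, m 1, m 2, m 3] := rfl
  rw [this]
  simp only [List.sum_cons, List.sum_nil]
  omega

end Cfsg.Agent.H346.DP
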