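import Mathlib
import Cfsg.Agent.H346.DP.F4RowOf
import Cfsg.Agent.H65.DP.F4

/-!
The row `F₄(q)` of S2454.
-/

set_option autoImplicit false

namespace Cfsg.Agent.H346.DP

open Cfsg.Agent.H514.DP Cfsg.Lie

/-- **`F₄(q)`.** -/
theorem pw_F4 {K : Type} [Field K] [Fintype K] {p : ℕ} (hp : p.Prime) (hd : p ∣ Nat.card ↥(chevF4.group K)) :
    PW p 70 ↥(chevF4.group K) :=
  pw_F4_of fun _ _ _ hpr => Cfsg.Agent.H65.DP.nodes_F4 hp hpr hd

end Cfsg.Agent.H346.DP
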